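import Mathlib
import Cfsg.Agent.Lib.Helper87.FrobFix

/-!
# Tool (T2') for S3814 (helper24): the Frobenius fixed-point lemma in internal form

`V` an abelian normal subgroup of exponent `t`, `W ≤ V`, `K` a subgroup of order prime to `t`,
`g` an element normalizing `K` and `W` such that every `g ^ i ≠ 1` is fixed-point-free on `K` and
`g` is fixed-point-free on `W`, `K` normalizes `W`.  Then `K` centralizes `W`.
-/

set_option autoImplicit false

namespace Cfsg.Agent.Lib.Helper24.FP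

open Cfsg.Agent.Lib.Helper87

/-- an element conjugating a finite subgroup into itself normalizes it -/
theorem mem_normalizer_of_conj_mem {G : Type*} [Group G] [Finite G] (X : Subgroup G) (m : G)
    (h : ∀ x ∈ X, m * x * m⁻¹ ∈ X) : m ∈ Subgroup.normalizer (X : Set G) := by
  rw [Subgroup.mem_normalizer_iff]
  intro x
  refine ⟨h x, fun hx => ?_⟩
  have hinj : Function.Injective (fun n : X => (⟨m * n.1 * m⁻¹, h n.1 n.2⟩ : X)) := by
    intro n n' hnn
    have h1 : m * n.1 * m⁻¹ = m * n'.1 * m⁻¹ := congrArg Subtype.val hnn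
    exact Subtype.ext (mul_left_cancel (mul_right_cancel h1))
  obtain ⟨n, hn⟩ := (Finite.injective_iff_surjective.mp hinj) ⟨m * x * m⁻¹, hx⟩
  have h1 : m * n.1 * m⁻¹ = m * x * m⁻¹ := congrArg Subtype.val hn
  have h2 : n.1 = x := mul_left_cancel (mul_right_cancel h1)
  rw [← h2]
  exact n.2

/-- **(T2')** -/
theorem t2 {G : Type*} [Group G] [Finite G] (V : Subgroup G) [hVn : V.Normal]
    (hVc : ∀ v ∈ V, ∀ w ∈ V, v * w = w * v) (t : ℕ) (hVexp : ∀ v ∈ V, v ^ t = 1)
    (K W : Subgroup G) (hWV : W ≤ V) (g : G)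
    (hgK : ∀ k ∈ K, g * k * g⁻¹ ∈ K) (hgW : ∀ w ∈ W, g * w * g⁻¹ ∈ W)
    (hKW : ∀ k ∈ K, ∀ w ∈ W, k * w * k⁻¹ ∈ W) (hcop : (Nat.card K).Coprime t)
    (hfpf : ∀ i : ℕ, g ^ i ≠ 1 → ∀ k ∈ K, g ^ i * k = k * g ^ i → k = 1)
    (hfix : ∀ w ∈ W, g * w = w * g → w = 1) :
    ∀ k ∈ K, ∀ w ∈ W, k * w = w * k := by
  classical
  obtain ⟨N, hN⟩ : ∃ N : Subgroup G, N = Subgroup.normalizer (K : Set G) ⊓
      Subgroup.normalizer (W : Set G) := ⟨_, rfl⟩
  have hNK : N ≤ Subgroup.normalizer (K : Set G) := by rw [hN]; exact inf_le_left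
  have hNW : N ≤ Subgroup.normalizer (W : Set G) := by rw [hN]; exact inf_le_right
  have hgN : g ∈ N := by
    rw [hN]
    exact ⟨mem_normalizer_of_conj_mem K g hgK, mem_normalizer_of_conj_mem W g hgW⟩
  have hKN : K ≤ N := by
    intro k hk
    rw [hN]
    exact ⟨Subgroup.le_normalizer hk, mem_normalizer_of_conj_mem W k (hKW k hk)⟩
  haveI : (K.subgroupOf N).Normal := Subgroup.normal_subgroupOf_of_le_normalizer hNK
  letI : CommGroup ↥V :=
    { (inferInstance : Group ↥V) with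
      mul_comm := fun a b => Subtype.ext (hVc a.1 a.2 b.1 b.2) }
  let ρ : ↥N →* MulAut ↥V := (MulAut.conjNormal : G →* MulAut ↥V).comp N.subtype
  have hρ : ∀ (m : ↥N) (v : ↥V), ((ρ m v : ↥V) : G) = (m : G) * (v : G) * (m : G)⁻¹ :=
    fun m v => rfl
  have hzN : Subgroup.zpowers g ≤ N := (Subgroup.zpowers_le).mpr hgN
  let j : ↥(Subgroup.zpowers g) →* ↥N := Subgroup.inclusion hzN
  haveI : Fintype ↥(Subgroup.zpowers g) := Fintype.ofFinite _
  haveI : Fintype ↥(K.subgroupOf N) := Fintype.ofFinite _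
  have hU : ∀ m : ↥N, ∀ u ∈ W.subgroupOf V, ρ m u ∈ W.subgroupOf V := by
    intro m u hu
    rw [Subgroup.mem_subgroupOf] at hu ⊢
    rw [hρ]
    exact (Subgroup.mem_normalizer_iff.mp (hNW m.2) _).mp hu
  have key := frob_fix ρ (K.subgroupOf N) j (by
      intro s hs k hk hcomm
      obtain ⟨i, hi⟩ : ∃ i : ℕ, g ^ i = (s : G) := by
        have h1 : (s : G) ∈ Submonoid.powers g := mem_powers_iff_mem_zpowers.mpr s.2
        exact Submonoid.mem_powers_iff _ _ |>.mp h1
      have hgi : g ^ i ≠ 1 := by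
        intro h
        apply hs
        apply Subtype.ext
        rw [← hi, h]
        rfl
      have h2 : (s : G) * (k : G) * (s : G)⁻¹ = (k : G) := by
        have := congrArg (fun z : ↥N => (z : G)) hcomm
        exact this
      have h3 : g ^ i * (k : G) = (k : G) * g ^ i := by
        rw [hi]
        calc (s : G) * (k : G) = (s : G) * (k : G) * (s : G)⁻¹ * (s : G) := by group
          _ = (k : G) * (s : G) := by rw [h2]
      have h4 := hfpf i hgi (k : G) (Subgroup.mem_subgroupOf.mp hk) h3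
      exact Subtype.ext h4)
    (W.subgroupOf V) hU (by
      intro u hu
      have h1 : (∏ s : ↥(Subgroup.zpowers g), ρ (j s) u) ∈ W.subgroupOf V :=
        Subgroup.prod_mem _ (fun s _ => hU _ u hu)
      have h2 : ρ ⟨g, hgN⟩ (∏ s : ↥(Subgroup.zpowers g), ρ (j s) u)
          = ∏ s : ↥(Subgroup.zpowers g), ρ (j s) u := by
        rw [map_prod]
        rw [← Equiv.prod_comp (Equiv.mulLeft (⟨g, Subgroup.mem_zpowers g⟩ : ↥(Subgroup.zpowers g)))
          (fun s => ρ (j s) u)]
        apply Finset.prod_congr rfl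
        intro s _
        show ρ ⟨g, hgN⟩ (ρ (j s) u)
          = ρ (j ((⟨g, Subgroup.mem_zpowers g⟩ : ↥(Subgroup.zpowers g)) * s)) u
        rw [← MulAut.mul_apply, ← map_mul]
        rfl
      have h3 : g * ((∏ s : ↥(Subgroup.zpowers g), ρ (j s) u : ↥V) : G)
          = ((∏ s : ↥(Subgroup.zpowers g), ρ (j s) u : ↥V) : G) * g := by
        have h4 := congrArg (fun z : ↥V => (z : G)) h2
        simp only [hρ] at h4
        calc g * ((∏ s : ↥(Subgroup.zpowers g), ρ (j s) u : ↥V) : G)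
            = g * ((∏ s : ↥(Subgroup.zpowers g), ρ (j s) u : ↥V) : G) * g⁻¹ * g := by group
          _ = ((∏ s : ↥(Subgroup.zpowers g), ρ (j s) u : ↥V) : G) * g := by rw [h4]
      have h5 := hfix _ (Subgroup.mem_subgroupOf.mp h1) h3
      exact Subtype.ext h5)
    (p := t) (by
      intro u _
      refine ⟨1, ?_⟩
      apply Subtype.ext
      rw [pow_one]
      show ((u ^ t : ↥V) : G) = 1
      rw [Subgroup.coe_pow]
      exact hVexp _ u.2)
    (by
      have h1 : Nat.card ↥(K.subgroupOf N) = Nat.card ↥K :=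
        Nat.card_congr (Subgroup.subgroupOfEquivOfLe hKN).toEquiv
      rw [← Nat.card_eq_fintype_card, h1]
      exact hcop)
  intro k hk w hw
  have h1 := key ⟨k, hKN hk⟩ (Subgroup.mem_subgroupOf.mpr hk) ⟨w, hWV hw⟩
    (Subgroup.mem_subgroupOf.mpr hw)
  have h2 := congrArg (fun z : ↥V => (z : G)) h1
  simp only [hρ] at h2
  calc k * w = k * w * k⁻¹ * k := by group
    _ = w * k := by rw [h2]

end Cfsg.Agent.Lib.Helper24.FP
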