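import Mathlib
import Cfsg.Agent.Lib.Helper46.FP.Defs
import Cfsg.Agent.Lib.Helper24.FP.T2

/-!
# S3814 package P4 (helper24): `BF_T3`

In the faithful case an element `y` of prime order `p` of `H` without fixed points on `V`
centralizes every abelian `p'`-subgroup `K` of `H` which it normalizes: `[K, y]` is a
`y`-invariant subgroup of `K` on which every nontrivial power of `y` is fixed-point-free, so by
(T2') it centralizes `V`, hence is trivial by faithfulness.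
-/

set_option autoImplicit false

namespace Cfsg.Agent.Lib.Helper24.FP

open Cfsg.Agent.Lib.Helper46.FP

universe u

/-- if `y` has prime order `p` and `y ^ i ≠ 1` then `y` is a power of `y ^ i` -/
theorem exists_pow_pow_eq_self {G : Type*} [Group G] {y : G} {p : ℕ} (hp : p.Prime)
    (hy : orderOf y = p) (i : ℕ) (hi : y ^ i ≠ 1) : ∃ m : ℕ, (y ^ i) ^ m = y := by
  have h1 : ¬ p ∣ i := by
    intro h
    apply hi
    rw [← hy] at h
    exact orderOf_dvd_iff_pow_eq_one.mp h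
  have h2 : Nat.Coprime i p := ((Nat.Prime.coprime_iff_not_dvd hp).mpr h1).symm
  obtain ⟨m, -, hm⟩ := Nat.exists_mul_mod_eq_one_of_coprime h2 hp.one_lt
  refine ⟨m, ?_⟩
  rw [← pow_mul, ← pow_mod_orderOf, hy, hm, pow_one]

theorem bf_T3 : Cfsg.Agent.Lib.Helper46.FP.BF_T3.{u} := by
  intro G _ V H t π hc hfa p hp y hyH hyo hnfx K hKH hKc hpK hyK
  haveI := hc.fin
  haveI := hc.Vnormal
  have hpp : p.Prime := hc.piprime p hp
  have hyinv : ∀ k ∈ K, y * k⁻¹ * y⁻¹ ∈ K := fun k hk => hyK _ (K.inv_mem hk)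
  -- the subgroup `[K, y]`
  let K1 : Subgroup G :=
    { carrier := {w | ∃ k ∈ K, w = k * (y * k⁻¹ * y⁻¹)}
      mul_mem' := by
        rintro w w' ⟨k, hk, rfl⟩ ⟨k', hk', rfl⟩
        refine ⟨k * k', K.mul_mem hk hk', ?_⟩
        have e1 : y * (k * k')⁻¹ * y⁻¹ = (y * k'⁻¹ * y⁻¹) * (y * k⁻¹ * y⁻¹) := by group
        rw [e1]
        have c1 := hKc _ (hyinv k hk) _ hk'
        have c2 := hKc _ (hyinv k hk) _ (hyinv k' hk')
        calc k * (y * k⁻¹ * y⁻¹) * (k' * (y * k'⁻¹ * y⁻¹))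
            = k * ((y * k⁻¹ * y⁻¹) * k') * (y * k'⁻¹ * y⁻¹) := by group
          _ = k * (k' * (y * k⁻¹ * y⁻¹)) * (y * k'⁻¹ * y⁻¹) := by rw [c1]
          _ = k * k' * ((y * k⁻¹ * y⁻¹) * (y * k'⁻¹ * y⁻¹)) := by group
          _ = k * k' * ((y * k'⁻¹ * y⁻¹) * (y * k⁻¹ * y⁻¹)) := by rw [c2]
      one_mem' := ⟨1, K.one_mem, by group⟩
      inv_mem' := by
        rintro w ⟨k, hk, rfl⟩
        refine ⟨k⁻¹, K.inv_mem hk, ?_⟩
        have c1 := hKc _ (hyK k hk) _ (K.inv_mem hk)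
        calc (k * (y * k⁻¹ * y⁻¹))⁻¹ = (y * k * y⁻¹) * k⁻¹ := by group
          _ = k⁻¹ * (y * k * y⁻¹) := c1
          _ = k⁻¹ * (y * k⁻¹⁻¹ * y⁻¹) := by group }
  have hK1mem : ∀ w : G, w ∈ K1 ↔ ∃ k ∈ K, w = k * (y * k⁻¹ * y⁻¹) := fun w => Iff.rfl
  have hK1K : K1 ≤ K := by
    intro w hw
    obtain ⟨k, hk, rfl⟩ := (hK1mem w).mp hw
    exact K.mul_mem hk (hyinv k hk)
  have hK1H : K1 ≤ H := hK1K.trans hKH
  -- `y` normalizes `K1`
  have hyK1 : ∀ w ∈ K1, y * w * y⁻¹ ∈ K1 := by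
    intro w hw
    obtain ⟨k, hk, rfl⟩ := (hK1mem w).mp hw
    rw [hK1mem]
    refine ⟨y * k * y⁻¹, hyK k hk, ?_⟩
    group
  have hyp : y ^ p = 1 := by rw [← hyo]; exact pow_orderOf_eq_one y
  -- `C_{K1}(y) = 1`
  have hfix1 : ∀ w ∈ K1, y * w = w * y → w = 1 := by
    intro w hw hcomm
    obtain ⟨k, hk, hwk⟩ := (hK1mem w).mp hw
    have h1 : k * y * k⁻¹ = w * y := by rw [hwk]; group
    have h2 : (k * y * k⁻¹) ^ p = 1 := by
      rw [conj_pow, hyp]; group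
    have h3 : (w * y) ^ p = w ^ p * y ^ p := (Commute.mul_pow (show Commute w y from hcomm.symm) p)
    have h4 : w ^ p = 1 := by
      rw [h1, h3, hyp, mul_one] at h2
      exact h2
    have h5 : orderOf w ∣ p := orderOf_dvd_of_pow_eq_one h4
    have h6 : orderOf w ∣ Nat.card K := Subgroup.orderOf_dvd_natCard K (hK1K hw)
    rcases (Nat.dvd_prime hpp).mp h5 with h7 | h7
    · exact orderOf_eq_one_iff.mp h7
    · exfalso
      rw [h7] at h6
      exact hpK h6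
  -- every `y ^ i ≠ 1` is fixed-point-free on `K1`
  have hfpf : ∀ i : ℕ, y ^ i ≠ 1 → ∀ k ∈ K1, y ^ i * k = k * y ^ i → k = 1 := by
    intro i hi k hk hcomm
    obtain ⟨m, hm⟩ := exists_pow_pow_eq_self hpp hyo i hi
    have h1 : Commute (y ^ i) k := hcomm
    have h2 : Commute ((y ^ i) ^ m) k := h1.pow_left m
    rw [hm] at h2
    exact hfix1 k hk h2
  have hcop : (Nat.card K1).Coprime t := by
    apply Nat.Coprime.symm
    rw [Nat.Prime.coprime_iff_not_dvd hc.tprime]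
    intro h
    exact hc.tnot (hc.Hpi t hc.tprime (h.trans (Subgroup.card_dvd_of_le hK1H)))
  have key := t2 V hc.Vcomm t hc.Vexp K1 V le_rfl y hyK1
    (fun w hw => hc.Vnormal.conj_mem w hw y)
    (fun k _ w hw => hc.Vnormal.conj_mem w hw k) hcop hfpf
    (by
      intro w hw hcomm
      by_contra hne
      exact hnfx ⟨w, hw, hne, hcomm.symm⟩)
  intro k hk
  have hw : k * (y * k⁻¹ * y⁻¹) ∈ K1 := (hK1mem _).mpr ⟨k, hk, rfl⟩
  have h1 : k * (y * k⁻¹ * y⁻¹) = 1 :=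
    hfa _ (hK1H hw) (fun v hv => (key _ hw v hv).symm)
  calc y * k = (k * (y * k⁻¹ * y⁻¹))⁻¹ * (k * y) := by group
    _ = k * y := by rw [h1]; group

end Cfsg.Agent.Lib.Helper24.FP
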