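import Mathlib
import Cfsg.Agent.Lib.Helper46.FP.Defs
import Cfsg.Agent.Lib.Helper24.FP.T2
import Cfsg.Agent.Lib.Helper24.FP.BFT3

/-!
# S3814 package P5 (helper24): `BF_M`

Faithful case: commuting `x, y ∈ H` of prime orders `p ≠ q` normalizing a nontrivial `r`-subgroup
`P` of `H`: exactly one of them has a nontrivial fixed point on `P`; that one has no fixed point
on `V`, the other one has a fixed point on `V`.
-/

set_option autoImplicit false

namespace Cfsg.Agent.Lib.Helper24.FP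

open Cfsg.Agent.Lib.Helper46.FP

universe u

section gen

variable {G : Type*} [Group G]

/-- the centre of a subgroup, as a subgroup of the ambient group -/
def zOf (P : Subgroup G) : Subgroup G := P ⊓ Subgroup.centralizer (P : Set G)

theorem mem_zOf (P : Subgroup G) (z : G) : z ∈ zOf P ↔ z ∈ P ∧ ∀ k ∈ P, k * z = z * k := by
  unfold zOf
  rw [Subgroup.mem_inf, Subgroup.mem_centralizer_iff]
  rfl

theorem zOf_le (P : Subgroup G) : zOf P ≤ P := inf_le_left

theorem zOf_conj [Finite G] (P : Subgroup G) (g : G) (hg : ∀ k ∈ P, g * k * g⁻¹ ∈ P) :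
    ∀ z ∈ zOf P, g * z * g⁻¹ ∈ zOf P := by
  intro z hz
  rw [mem_zOf] at hz ⊢
  refine ⟨hg z hz.1, ?_⟩
  intro k hk
  have hgN := mem_normalizer_of_conj_mem P g hg
  have h1 : g⁻¹ * k * g ∈ P := by
    have := (Subgroup.mem_normalizer_iff.mp (Subgroup.inv_mem _ hgN) k).mp hk
    simpa using this
  have h2 := hz.2 _ h1
  calc k * (g * z * g⁻¹) = g * ((g⁻¹ * k * g) * z) * g⁻¹ := by group
    _ = g * (z * (g⁻¹ * k * g)) * g⁻¹ := by rw [h2]
    _ = g * z * g⁻¹ * k := by group

theorem zOf_ne_bot [Finite G] (P : Subgroup G) (r : ℕ) (hr : r.Prime) (hP : IsPGroup r P)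
    (hne : P ≠ ⊥) : ∃ z ∈ zOf P, z ≠ 1 := by
  haveI : Fact r.Prime := ⟨hr⟩
  haveI : Nontrivial ↥P := (Subgroup.nontrivial_iff_ne_bot P).mpr hne
  haveI := hP.center_nontrivial
  obtain ⟨z, hz⟩ := exists_ne (1 : Subgroup.center ↥P)
  refine ⟨((z : ↥P) : G), ?_, ?_⟩
  · rw [mem_zOf]
    refine ⟨(z : ↥P).2, ?_⟩
    intro k hk
    have h1 := Subgroup.mem_center_iff.mp z.2 ⟨k, hk⟩
    exact congrArg Subtype.val h1
  · intro h
    apply hz
    apply Subtype.ext
    apply Subtype.ext
    exact h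

/-- the centralizer of an element in a subgroup -/
def cIn (P : Subgroup G) (x : G) : Subgroup G := P ⊓ Subgroup.centralizer ({x} : Set G)

theorem mem_cIn (P : Subgroup G) (x k : G) : k ∈ cIn P x ↔ k ∈ P ∧ x * k = k * x := by
  unfold cIn
  rw [Subgroup.mem_inf, Subgroup.mem_centralizer_iff]
  simp

theorem cIn_le (P : Subgroup G) (x : G) : cIn P x ≤ P := inf_le_left

/-- a nontrivial element of `r`-power order has a power of order `r` -/
theorem exists_pow_orderOf_eq {k : G} {r : ℕ} (hr : r.Prime) (hk : k ≠ 1) (n : ℕ)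
    (hkn : k ^ r ^ n = 1) : ∃ j : ℕ, orderOf (k ^ j) = r := by
  obtain ⟨m, -, hmo⟩ := (Nat.dvd_prime_pow hr).mp (orderOf_dvd_of_pow_eq_one hkn)
  have hm0 : m ≠ 0 := by
    rintro rfl
    rw [pow_zero] at hmo
    exact hk (orderOf_eq_one_iff.mp hmo)
  obtain ⟨m', rfl⟩ := Nat.exists_eq_succ_of_ne_zero hm0
  refine ⟨r ^ m', ?_⟩
  rw [orderOf_pow_of_dvd (pow_ne_zero _ hr.ne_zero)
    (by rw [hmo]; exact pow_dvd_pow r (Nat.le_succ m')), hmo, pow_succ,
    Nat.mul_div_cancel_left _ (pow_pos hr.pos _)]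

end gen

section cfg

variable {G : Type u} [Group G] {V H : Subgroup G} {t : ℕ} {π : Finset ℕ}

/-- (F), for arbitrary elements of `G` -/
theorem noFx_of_order (hc : Cfg V H t π) {a b : ℕ} (ha : a ∈ π) (hb : b ∈ π) (hab : a ≠ b)
    (g : G) (hg : orderOf g = a * b) : ¬ Fx V g := by
  rintro ⟨v, hv, hv1, hcomm⟩
  have hap := hc.piprime a ha
  have hbp := hc.piprime b hb
  have hta : t ≠ a := fun h => hc.tnot (h ▸ ha)
  have htb : t ≠ b := fun h => hc.tnot (h ▸ hb)
  have hvo : orderOf v = t := by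
    haveI : Fact t.Prime := ⟨hc.tprime⟩
    exact orderOf_eq_prime (hc.Vexp v hv) hv1
  have hcop : Nat.Coprime (orderOf v) (orderOf g) := by
    rw [hvo, hg]
    exact Nat.Coprime.mul_right ((Nat.coprime_primes hc.tprime hap).mpr hta)
      ((Nat.coprime_primes hc.tprime hbp).mpr htb)
  have h1 := (show Commute v g from hcomm).orderOf_mul_eq_mul_orderOf_of_coprime hcop
  rw [hvo, hg] at h1
  exact hc.notriple t (Finset.mem_insert_self _ _) a (Finset.mem_insert_of_mem ha) b
    (Finset.mem_insert_of_mem hb) hta hab htb (v * g) (by rw [h1, mul_assoc])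

/-- three pairwise commuting elements of the three prime orders do not exist -/
theorem no_triple_commuting (hc : Cfg V H t π) {p q r : ℕ} (hp : p ∈ π) (hq : q ∈ π)
    (hr : r ∈ π) (hpq : p ≠ q) (hqr : q ≠ r) (hpr : p ≠ r) (x y z : G) (hx : orderOf x = p)
    (hy : orderOf y = q) (hz : orderOf z = r) (hxy : x * y = y * x) (hxz : x * z = z * x)
    (hyz : y * z = z * y) : False := by
  have hpp := hc.piprime p hp
  have hqp := hc.piprime q hq
  have hrp := hc.piprime r hr
  have h1 : orderOf (x * y) = p * q := by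
    rw [(show Commute x y from hxy).orderOf_mul_eq_mul_orderOf_of_coprime
      (by rw [hx, hy]; exact (Nat.coprime_primes hpp hqp).mpr hpq), hx, hy]
  have h2 : Commute (x * y) z := Commute.mul_left hxz hyz
  have h3 := h2.orderOf_mul_eq_mul_orderOf_of_coprime (by
    rw [h1, hz]
    exact Nat.Coprime.mul_left ((Nat.coprime_primes hpp hrp).mpr hpr)
      ((Nat.coprime_primes hqp hrp).mpr hqr))
  rw [h1, hz] at h3
  exact hc.notriple p (Finset.mem_insert_of_mem hp) q (Finset.mem_insert_of_mem hq) r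
    (Finset.mem_insert_of_mem hr) hpq hqr hpr _ h3

theorem card_coprime_of_le (hc : Cfg V H t π) (K : Subgroup G) (hK : K ≤ H) :
    (Nat.card K).Coprime t := by
  haveI := hc.fin
  apply Nat.Coprime.symm
  rw [Nat.Prime.coprime_iff_not_dvd hc.tprime]
  intro h
  exact hc.tnot (hc.Hpi t hc.tprime (h.trans (Subgroup.card_dvd_of_le hK)))

/-- the core of (M): if `x` has a nontrivial fixed point on `P` then `x` has no fixed point on
`V` and `y` has one. -/
theorem bfM_core (hc : Cfg V H t π) (hfa : Faithful V H) {p q r : ℕ} (hp : p ∈ π) (hq : q ∈ π)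
    (hr : r ∈ π) (hpq : p ≠ q) (hqr : q ≠ r) (hpr : p ≠ r) (x y : G)
    (hxo : orderOf x = p) (hyo : orderOf y = q) (hxy : x * y = y * x) (P : Subgroup G)
    (hPH : P ≤ H) (hP : IsPGroup r P)
    (hyP : ∀ k ∈ P, y * k * y⁻¹ ∈ P) (hfix : ∃ k ∈ P, k ≠ 1 ∧ x * k = k * x) :
    ¬ Fx V x ∧ Fx V y := by
  haveI := hc.fin
  haveI := hc.Vnormal
  have hpp := hc.piprime p hp
  have hqp := hc.piprime q hq
  have hrp := hc.piprime r hr
  obtain ⟨k0, hk0P, hk01, hk0x⟩ := hfix
  have hP1P : cIn P x ≤ P := cIn_le P x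
  have hP1r : IsPGroup r (cIn P x) := hP.to_le hP1P
  have hP1ne : cIn P x ≠ ⊥ := by
    intro h
    have h1 : k0 ∈ cIn P x := (mem_cIn P x k0).mpr ⟨hk0P, hk0x⟩
    rw [h, Subgroup.mem_bot] at h1
    exact hk01 h1
  have hcxy : Commute x y := hxy
  have hyP1 : ∀ k ∈ cIn P x, y * k * y⁻¹ ∈ cIn P x := by
    intro k hk
    rw [mem_cIn] at hk ⊢
    refine ⟨hyP k hk.1, ?_⟩
    exact ((hcxy.mul_right (show Commute x k from hk.2)).mul_right hcxy.inv_right).eq
  -- `C_{P1}(y) = 1`
  have hCP1y : ∀ k ∈ cIn P x, y * k = k * y → k = 1 := by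
    intro k hk hyk
    by_contra hk1
    obtain ⟨n, hn⟩ := hP1r ⟨k, hk⟩
    have hn' : k ^ r ^ n = 1 := congrArg Subtype.val hn
    obtain ⟨j, hj⟩ := exists_pow_orderOf_eq hrp hk1 n hn'
    exact no_triple_commuting hc hp hq hr hpq hqr hpr x y (k ^ j) hxo hyo hj hxy
      ((show Commute x k from ((mem_cIn P x k).mp hk).2).pow_right j).eq
      ((show Commute y k from hyk).pow_right j).eq
  obtain ⟨z0, hz0, hz01⟩ := zOf_ne_bot (cIn P x) r hrp hP1r hP1ne
  have hZ1P1 : zOf (cIn P x) ≤ cIn P x := zOf_le _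
  have hZ1H : zOf (cIn P x) ≤ H := (hZ1P1.trans hP1P).trans hPH
  have hyZ1 := zOf_conj (cIn P x) y hyP1
  have hcop : (Nat.card (zOf (cIn P x))).Coprime t := card_coprime_of_le hc _ hZ1H
  have hfpf : ∀ i : ℕ, y ^ i ≠ 1 → ∀ k ∈ zOf (cIn P x), y ^ i * k = k * y ^ i → k = 1 := by
    intro i hi k hk hcomm
    obtain ⟨m, hm⟩ := exists_pow_pow_eq_self hqp hyo i hi
    have h2 : Commute ((y ^ i) ^ m) k := (show Commute (y ^ i) k from hcomm).pow_left m
    rw [hm] at h2
    exact hCP1y k (hZ1P1 hk) h2.eq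
  have hxyo : orderOf (x * y) = p * q := by
    rw [hcxy.orderOf_mul_eq_mul_orderOf_of_coprime
      (by rw [hxo, hyo]; exact (Nat.coprime_primes hpp hqp).mpr hpq), hxo, hyo]
  -- first application: `Z1` centralizes `C_V(x)`
  have key1 := t2 V hc.Vcomm t hc.Vexp (zOf (cIn P x)) (cIn V x) (cIn_le V x) y hyZ1
    (by
      intro w hw
      rw [mem_cIn] at hw ⊢
      refine ⟨hc.Vnormal.conj_mem w hw.1 y, ?_⟩
      exact ((hcxy.mul_right (show Commute x w from hw.2)).mul_right hcxy.inv_right).eq)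
    (by
      intro k hk w hw
      have hkx : Commute x k := ((mem_cIn P x k).mp (hZ1P1 hk)).2
      rw [mem_cIn] at hw ⊢
      refine ⟨hc.Vnormal.conj_mem w hw.1 k, ?_⟩
      exact ((hkx.mul_right (show Commute x w from hw.2)).mul_right hkx.inv_right).eq)
    hcop hfpf
    (by
      intro w hw hyw
      by_contra hw1
      rw [mem_cIn] at hw
      exact noFx_of_order hc hp hq hpq (x * y) hxyo
        ⟨w, hw.1, hw1, ((show Commute x w from hw.2).mul_left (show Commute y w from hyw)).eq.symm⟩)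
  have hnFx : ¬ Fx V x := by
    rintro ⟨v, hv, hv1, hvx⟩
    obtain ⟨n, hn⟩ := hP1r ⟨z0, hZ1P1 hz0⟩
    obtain ⟨j, hj⟩ := exists_pow_orderOf_eq hrp hz01 n (congrArg Subtype.val hn)
    have hzj : z0 ^ j ∈ zOf (cIn P x) := Subgroup.pow_mem _ hz0 j
    have hzx : Commute (z0 ^ j) x := (show Commute x (z0 ^ j) from
      ((mem_cIn P x _).mp (hZ1P1 hzj)).2).symm
    have ho : orderOf (z0 ^ j * x) = r * p := by
      rw [hzx.orderOf_mul_eq_mul_orderOf_of_coprime
        (by rw [hj, hxo]; exact (Nat.coprime_primes hrp hpp).mpr hpr.symm), hj, hxo]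
    have hvz : Commute (z0 ^ j) v := key1 _ hzj v ((mem_cIn V x v).mpr ⟨hv, hvx.symm⟩)
    exact noFx_of_order hc hr hp hpr.symm (z0 ^ j * x) ho
      ⟨v, hv, hv1, (hvz.symm.mul_right (show Commute v x from hvx)).eq⟩
  have hFy : Fx V y := by
    by_contra hnf
    have key2 := t2 V hc.Vcomm t hc.Vexp (zOf (cIn P x)) V le_rfl y hyZ1
      (fun w hw => hc.Vnormal.conj_mem w hw y)
      (fun k _ w hw => hc.Vnormal.conj_mem w hw k) hcop hfpf
      (by
        intro w hw hcomm
        by_contra hne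
        exact hnf ⟨w, hw, hne, hcomm.symm⟩)
    exact hz01 (hfa z0 (hZ1H hz0) (fun v hv => (key2 z0 hz0 v hv).symm))
  exact ⟨hnFx, hFy⟩

end cfg

theorem bf_M : Cfsg.Agent.Lib.Helper46.FP.BF_M.{u} := by
  intro G _ V H t π hc hfa p hp q hq r hr hpq hqr hpr x hxH y hyH hxo hyo hxy P hPH hP hPne hxP hyP
  haveI := hc.fin
  haveI := hc.Vnormal
  have hpp := hc.piprime p hp
  have hqp := hc.piprime q hq
  have hrp := hc.piprime r hr
  have hcxy : Commute x y := hxy
  by_cases hx : ∃ k ∈ P, k ≠ 1 ∧ x * k = k * x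
  · have h1 := bfM_core hc hfa hp hq hr hpq hqr hpr x y hxo hyo hxy P hPH hP hyP hx
    by_cases hy : ∃ k ∈ P, k ≠ 1 ∧ y * k = k * y
    · have h2 := bfM_core hc hfa hq hp hr hpq.symm hpr hqr y x hyo hxo hxy.symm P hPH hP hxP hy
      exact absurd h1.2 h2.1
    · left
      refine ⟨hx, ?_, h1.1, h1.2⟩
      intro k hk hyk
      by_contra hk1
      exact hy ⟨k, hk, hk1, hyk⟩
  · have hx' : ∀ k ∈ P, x * k = k * x → k = 1 := by
      intro k hk hxk
      by_contra hk1
      exact hx ⟨k, hk, hk1, hxk⟩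
    by_cases hy : ∃ k ∈ P, k ≠ 1 ∧ y * k = k * y
    · have h2 := bfM_core hc hfa hq hp hr hpq.symm hpr hqr y x hyo hxo hxy.symm P hPH hP hxP hy
      right
      exact ⟨hy, hx', h2.1, h2.2⟩
    · exfalso
      have hy' : ∀ k ∈ P, y * k = k * y → k = 1 := by
        intro k hk hyk
        by_contra hk1
        exact hy ⟨k, hk, hk1, hyk⟩
      obtain ⟨z0, hz0, hz01⟩ := zOf_ne_bot P r hrp hP hPne
      have hZP : zOf P ≤ P := zOf_le P
      have hZH : zOf P ≤ H := hZP.trans hPH
      have hgP : ∀ k ∈ P, (x * y) * k * (x * y)⁻¹ ∈ P := by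
        intro k hk
        have h1 := hxP _ (hyP k hk)
        have e : (x * y) * k * (x * y)⁻¹ = x * (y * k * y⁻¹) * x⁻¹ := by group
        rw [e]
        exact h1
      have hgZ := zOf_conj P (x * y) hgP
      have hcop : (Nat.card (zOf P)).Coprime t := card_coprime_of_le hc _ hZH
      have hxyo : orderOf (x * y) = p * q := by
        rw [hcxy.orderOf_mul_eq_mul_orderOf_of_coprime
          (by rw [hxo, hyo]; exact (Nat.coprime_primes hpp hqp).mpr hpq), hxo, hyo]
      have hfpf : ∀ i : ℕ, (x * y) ^ i ≠ 1 → ∀ k ∈ zOf P,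
          (x * y) ^ i * k = k * (x * y) ^ i → k = 1 := by
        intro i hi k hk hcomm
        have hpow : (x * y) ^ i = x ^ i * y ^ i := hcxy.mul_pow i
        by_cases hxi : x ^ i = 1
        · have hyi : y ^ i ≠ 1 := by
            intro h
            apply hi
            rw [hpow, hxi, h, one_mul]
          obtain ⟨m, hm⟩ := exists_pow_pow_eq_self hqp hyo i hyi
          have h1 : Commute (y ^ i) k := by
            have e : (x * y) ^ i = y ^ i := by rw [hpow, hxi, one_mul]
            rw [e] at hcomm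
            exact hcomm
          have h2 := h1.pow_left m
          rw [hm] at h2
          exact hy' k (hZP hk) h2.eq
        · have h1 : ((x * y) ^ i) ^ q = (x ^ i) ^ q := by
            rw [hpow, (hcxy.pow_pow i i).mul_pow, ← pow_mul y, mul_comm i q, pow_mul y, ← hyo,
              pow_orderOf_eq_one, one_pow, mul_one]
          have h2 : (x ^ i) ^ q ≠ 1 := by
            intro h
            have h3 : orderOf (x ^ i) ∣ q := orderOf_dvd_of_pow_eq_one h
            have h4 : orderOf (x ^ i) ∣ p := by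
              rw [← hxo]; exact orderOf_pow_dvd i
            have h5 : orderOf (x ^ i) = 1 :=
              Nat.Coprime.eq_one_of_dvd ((Nat.coprime_primes hqp hpp).mpr hpq.symm)
                |> fun _ => Nat.eq_one_of_dvd_coprimes ((Nat.coprime_primes hqp hpp).mpr hpq.symm) h3 h4
            exact hxi (orderOf_eq_one_iff.mp h5)
          rw [← pow_mul] at h2
          obtain ⟨m, hm⟩ := exists_pow_pow_eq_self hpp hxo (i * q) h2
          have h6 : Commute (((x * y) ^ i) ^ q) k :=
            (show Commute ((x * y) ^ i) k from hcomm).pow_left q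
          rw [h1, ← pow_mul] at h6
          have h7 := h6.pow_left m
          rw [hm] at h7
          exact hx' k (hZP hk) h7.eq
      have key := t2 V hc.Vcomm t hc.Vexp (zOf P) V le_rfl (x * y) hgZ
        (fun w hw => hc.Vnormal.conj_mem w hw _)
        (fun k _ w hw => hc.Vnormal.conj_mem w hw k) hcop hfpf
        (by
          intro w hw hcomm
          by_contra hne
          exact noFx_of_order hc hp hq hpq (x * y) hxyo ⟨w, hw, hne, hcomm.symm⟩)
      exact hz01 (hfa z0 (hZH hz0) (fun v hv => (key z0 hz0 v hv).symm))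

end Cfsg.Agent.Lib.Helper24.FP
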